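import Mathlib

/-!
# S3117 packages (helper51): the automorphism group of a 2-group with exactly three involutions
is solvable.

Plan.  Induction on `|X|` for `P(X)`: "`X` a finite 2-group with at most 4 solutions of `x² = 1`
⟹ `MulAut X` solvable".  Restrict to a critical subgroup (S0093); the kernel of the restriction
is a 2-group.  In the critical case (`x² ∈ Z(X)`, commutators central) the automorphisms fixing
`Z = Z(X)` pointwise act on `W = X/Z` preserving the quadratic map `sq : W → T = Z/Z²`,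
`sq(xZ) = x² Z²`, which has `N₀ · |T| ≤ 4` zeros-times-target; the group of automorphisms of
such a quadratic map is solvable (`LemQuad`).
-/

set_option autoImplicit false

universe u v

namespace Cfsg.Agent.Lib.Helper51.TI3

/-- Restriction of automorphisms to an invariant subgroup. -/
def resAut {G : Type u} [Group G] (H : Subgroup G)
    (hH : ∀ (α : MulAut G) (h : G), h ∈ H → α h ∈ H) : MulAut G →* MulAut ↥H where
  toFun α :=
    { toFun := fun w => ⟨α w, hH α w w.2⟩
      invFun := fun w => ⟨α⁻¹ w, hH α⁻¹ w w.2⟩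
      left_inv := fun w => by ext; simp
      right_inv := fun w => by ext; simp
      map_mul' := fun a b => by ext; simp }
  map_one' := by ext; simp
  map_mul' a b := by ext; simp

theorem resAut_apply {G : Type u} [Group G] (H : Subgroup G)
    (hH : ∀ (α : MulAut G) (h : G), h ∈ H → α h ∈ H) (α : MulAut G) (w : ↥H) :
    ((resAut H hH α w : ↥H) : G) = α w := rfl

/-- Quadratic data: a map `sq : W → T` between groups of exponent 2 with "polar form" `β`,
additive in the first variable. -/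
structure QD (W : Type u) (T : Type v) [Group W] [Group T] where
  sq : W → T
  β : W → W → T
  hW : ∀ w : W, w * w = 1
  hT : ∀ t : T, t * t = 1
  sq_mul : ∀ w w' : W, sq (w * w') = sq w * sq w' * β w w'
  β_mul : ∀ w w' u : W, β (w * w') u = β w u * β w' u

/-- (QK) `sq` cannot take only two non-identity values `a, b` on the seven products of three
elements. -/
def LemK : Prop :=
  ∀ {W : Type u} {T : Type v} [Group W] [Group T] (Q : QD W T) (u₁ u₂ u₃ : W) (a b : T),
    a ≠ 1 → b ≠ 1 →
    (∀ x : W, x = u₁ ∨ x = u₂ ∨ x = u₃ ∨ x = u₁ * u₂ ∨ x = u₁ * u₃ ∨ x = u₂ * u₃ ∨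
      x = u₁ * u₂ * u₃ → Q.sq x = a ∨ Q.sq x = b) → False

/-- (QB2) target of order 2 and at most two zeros: `|W| ≤ 8`. -/
def LemBound2 : Prop :=
  ∀ {W : Type u} {T : Type v} [Group W] [Group T] [Finite W] [Finite T] (Q : QD W T),
    Nat.card T = 2 → Nat.card {w : W // Q.sq w = 1} ≤ 2 → Nat.card W ≤ 8

/-- (QB4) target of order 4 and anisotropic: `|W| ≤ 16`. -/
def LemBound4 : Prop :=
  ∀ {W : Type u} {T : Type v} [Group W] [Group T] [Finite W] [Finite T] (Q : QD W T),
    Nat.card T = 4 → (∀ w : W, Q.sq w = 1 → w = 1) → Nat.card W ≤ 16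

/-- (QR) an automorphism of odd prime order `r` of an elementary abelian 2-group has an
invariant subgroup `U ≠ 1` on which it has no non-trivial fixed point; `r ∣ |U| - 1`. -/
def LemOrbit : Prop :=
  ∀ {W : Type u} [Group W] [Finite W], (∀ w : W, w * w = 1) →
    ∀ (g : MulAut W) (r : ℕ), r.Prime → r ≠ 2 → orderOf g = r →
    ∃ U : Subgroup W, (∀ u ∈ U, g u ∈ U) ∧ (∀ u ∈ U, g u = u → u = 1) ∧ U ≠ ⊥ ∧
      r ∣ Nat.card U - 1

/-- (QS7) no `sq`-preserving automorphism of order 7. -/
def LemNo7 : Prop :=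
  ∀ {W : Type u} {T : Type v} [Group W] [Group T] [Finite W] [Finite T] (Q : QD W T),
    Nat.card W ≤ 16 → Nat.card {w : W // Q.sq w = 1} ≤ 2 →
    ∀ g : MulAut W, (∀ w, Q.sq (g w) = Q.sq w) → orderOf g ≠ 7

/-- (QS5) a `sq`-preserving automorphism of order 5 (anisotropic case) bounds the group of
`sq`-preserving automorphisms by 10. -/
def LemFive : Prop :=
  ∀ {W : Type u} {T : Type v} [Group W] [Group T] [Finite W] [Finite T] (Q : QD W T),
    Nat.card W ≤ 16 → (∀ w : W, Q.sq w = 1 → w = 1) →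
    ∀ Γ : Subgroup (MulAut W), (∀ g ∈ Γ, ∀ w, Q.sq (g w) = Q.sq w) →
    (∃ g ∈ Γ, orderOf g = 5) → Nat.card Γ ≤ 10

/-- (QF) the automorphisms of a quadratic map with `N₀ · |T| ≤ 4` form a solvable group. -/
def LemQuad : Prop :=
  ∀ {W : Type u} {T : Type v} [Group W] [Group T] [Finite W] [Finite T] (Q : QD W T),
    2 ≤ Nat.card T → Nat.card {w : W // Q.sq w = 1} * Nat.card T ≤ 4 →
    ∀ Γ : Subgroup (MulAut W), (∀ g ∈ Γ, ∀ w, Q.sq (g w) = Q.sq w) → Group.IsSolvable ↥Γ

/-- (GA) the abelian case. -/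
def LemAb : Prop :=
  ∀ {X : Type u} [Group X] [Finite X], IsPGroup 2 X → (∀ a b : X, a * b = b * a) →
    Nat.card {x : X // x ^ 2 = 1} ≤ 4 → Group.IsSolvable (MulAut X)

/-- The quadratic data attached to a critical group `X`: `W ≅ X/Z(X)`, `T ≅ Z(X)/Z(X)²`. -/
structure CritData (X : Type u) [Group X] (W : Type u) (T : Type u) [Group W] [Group T] where
  Q : QD W T
  π : X →* W
  τ : ↥(Subgroup.center X) →* T
  π_surj : Function.Surjective π
  π_ker : ∀ x : X, π x = 1 ↔ x ∈ Subgroup.center X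
  τ_surj : Function.Surjective τ
  τ_ker : ∀ z : ↥(Subgroup.center X), τ z = 1 ↔ ∃ y : ↥(Subgroup.center X), z = y ^ 2
  sq_π : ∀ (x : X) (hx : x ^ 2 ∈ Subgroup.center X), Q.sq (π x) = τ ⟨x ^ 2, hx⟩

/-- (GH1a) existence of the quadratic data of a critical group. -/
def LemCritExists : Prop :=
  ∀ {X : Type u} [Group X] [Finite X], (∀ x : X, x ^ 2 ∈ Subgroup.center X) →
    (∀ x y : X, x * y * x⁻¹ * y⁻¹ ∈ Subgroup.center X) →
    ∃ (W : Type u) (T : Type u) (_ : Group W) (_ : Group T) (_ : Finite W) (_ : Finite T),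
      Nonempty (CritData X W T)

/-- (GH1b) the count `N₀ · |T| = #{x | x² = 1}` and `|T| ≥ 2`. -/
def LemCritCount : Prop :=
  ∀ {X : Type u} [Group X] [Finite X] {W : Type u} {T : Type u} [Group W] [Group T]
    [Finite W] [Finite T] (D : CritData X W T), IsPGroup 2 X → Nontrivial X →
    Nat.card {x : X // x ^ 2 = 1} ≤ 4 →
    2 ≤ Nat.card T ∧ Nat.card {w : W // D.Q.sq w = 1} * Nat.card T ≤ 4

/-- (GH2) solvability of `MulAut X` from the solvability of the automorphism group of the
quadratic data and of `MulAut Z(X)`. -/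
def LemCritHom : Prop :=
  ∀ {X : Type u} [Group X] [Finite X] {W : Type u} {T : Type u} [Group W] [Group T]
    [Finite W] [Finite T] (D : CritData X W T), IsPGroup 2 X →
    (∀ Γ : Subgroup (MulAut W), (∀ g ∈ Γ, ∀ w, D.Q.sq (g w) = D.Q.sq w) → Group.IsSolvable ↥Γ) →
    Group.IsSolvable (MulAut ↥(Subgroup.center X)) → Group.IsSolvable (MulAut X)

end Cfsg.Agent.Lib.Helper51.TI3
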