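import Cfsg.Agent.Lib.Helper51.TI3.Defs

/-!
# S3117 package QK (helper51): basic identities of quadratic data and the "three elements" lemma.
-/

set_option autoImplicit false

universe u v

namespace Cfsg.Agent.Lib.Helper51.TI3

namespace QD

variable {W : Type u} {T : Type v} [Group W] [Group T]

theorem T_comm (Q : QD W T) (s t : T) : s * t = t * s := by
  have h : ∀ t : T, t⁻¹ = t := fun t => inv_eq_of_mul_eq_one_left (Q.hT t)
  calc s * t = (s * t)⁻¹ := (h _).symm
    _ = t⁻¹ * s⁻¹ := mul_inv_rev _ _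
    _ = t * s := by rw [h, h]

theorem W_comm (Q : QD W T) (s t : W) : s * t = t * s := by
  have h : ∀ t : W, t⁻¹ = t := fun t => inv_eq_of_mul_eq_one_left (Q.hW t)
  calc s * t = (s * t)⁻¹ := (h _).symm
    _ = t⁻¹ * s⁻¹ := mul_inv_rev _ _
    _ = t * s := by rw [h, h]

theorem T_lcomm (Q : QD W T) (s t r : T) : s * (t * r) = t * (s * r) := by
  rw [← mul_assoc, Q.T_comm s t, mul_assoc]

theorem T_cancel (Q : QD W T) (s t : T) : s * (s * t) = t := by
  rw [← mul_assoc, Q.hT, one_mul]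

theorem β_eq (Q : QD W T) (w w' : W) : Q.β w w' = Q.sq (w * w') * Q.sq w * Q.sq w' := by
  rw [Q.sq_mul, Q.T_comm (Q.sq w * Q.sq w') (Q.β w w'), mul_assoc (Q.β w w'), mul_assoc (Q.β w w'),
    mul_assoc (Q.sq w * Q.sq w') (Q.sq w) (Q.sq w'), Q.hT (Q.sq w * Q.sq w'), mul_one]

theorem β_symm (Q : QD W T) (w w' : W) : Q.β w w' = Q.β w' w := by
  rw [Q.β_eq, Q.β_eq, Q.W_comm w w', mul_assoc, mul_assoc, Q.T_comm (Q.sq w)]

theorem β_mul_right (Q : QD W T) (u w w' : W) : Q.β u (w * w') = Q.β u w * Q.β u w' := by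
  rw [Q.β_symm, Q.β_mul, Q.β_symm w, Q.β_symm w']

theorem β_one_left (Q : QD W T) (u : W) : Q.β 1 u = 1 := by
  have h := Q.β_mul 1 1 u
  rw [mul_one] at h
  have h2 := Q.hT (Q.β 1 u)
  rw [← h] at h2
  exact h2

theorem β_one_right (Q : QD W T) (u : W) : Q.β u 1 = 1 := by
  rw [Q.β_symm, Q.β_one_left]

theorem sq_one (Q : QD W T) : Q.sq 1 = 1 := by
  have h := Q.sq_mul 1 1
  rw [mul_one, Q.β_one_left, mul_one, Q.hT] at h
  exact h

theorem β_self (Q : QD W T) (w : W) : Q.β w w = 1 := by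
  rw [Q.β_eq, Q.hW, Q.sq_one, one_mul, Q.hT]

/-- If `β u w = 1` then `sq (u * w) = sq u * sq w`. -/
theorem sq_mul_of_β (Q : QD W T) {u w : W} (h : Q.β u w = 1) : Q.sq (u * w) = Q.sq u * Q.sq w := by
  rw [Q.sq_mul, h, mul_one]

end QD

/-- (QK) -/
theorem lemK : LemK.{u, v} := by
  intro W T _ _ Q u₁ u₂ u₃ a b ha hb h
  have three : ∀ x y z : T, (x = a ∨ x = b) → (y = a ∨ y = b) → (z = a ∨ z = b) →
      (x * y * z = a ∨ x * y * z = b) := by
    intro x y z hx hy hz
    rcases hx with hx | hx <;> rcases hy with hy | hy <;> rcases hz with hz | hz <;>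
      rw [hx, hy, hz]
    · left; rw [Q.hT, one_mul]
    · right; rw [Q.hT, one_mul]
    · right; rw [Q.T_comm a b, mul_assoc, Q.hT, mul_one]
    · left; rw [mul_assoc, Q.hT, mul_one]
    · right; rw [mul_assoc, Q.hT, mul_one]
    · left; rw [Q.T_comm b a, mul_assoc, Q.hT, mul_one]
    · left; rw [Q.hT, one_mul]
    · right; rw [Q.hT, one_mul]
  have h1 := h u₁ (Or.inl rfl)
  have h2 := h u₂ (Or.inr (Or.inl rfl))
  have h3 := h u₃ (Or.inr (Or.inr (Or.inl rfl)))
  have h12 := h (u₁ * u₂) (Or.inr (Or.inr (Or.inr (Or.inl rfl))))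
  have h13 := h (u₁ * u₃) (Or.inr (Or.inr (Or.inr (Or.inr (Or.inl rfl)))))
  have h23 := h (u₂ * u₃) (Or.inr (Or.inr (Or.inr (Or.inr (Or.inr (Or.inl rfl))))))
  have h123 := h (u₁ * u₂ * u₃) (Or.inr (Or.inr (Or.inr (Or.inr (Or.inr (Or.inr rfl))))))
  have b12 : Q.β u₁ u₂ = a ∨ Q.β u₁ u₂ = b := by
    rw [Q.β_eq]; exact three _ _ _ h12 h1 h2
  have b13 : Q.β u₁ u₃ = a ∨ Q.β u₁ u₃ = b := by
    rw [Q.β_eq]; exact three _ _ _ h13 h1 h3
  have b123 : Q.β u₁ (u₂ * u₃) = a ∨ Q.β u₁ (u₂ * u₃) = b := by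
    rw [Q.β_eq, ← mul_assoc]; exact three _ _ _ h123 h1 h23
  rw [Q.β_mul_right] at b123
  have hab : a * b = a → False := fun e => hb (by
    have := congrArg (fun t => a * t) e
    simp only [Q.T_cancel, Q.hT] at this
    exact this)
  have hab' : a * b = b → False := fun e => ha (by
    have := congrArg (fun t => t * b) e
    simp only [mul_assoc, Q.hT, mul_one] at this
    exact this)
  rcases b12 with e1 | e1 <;> rcases b13 with e2 | e2 <;> rw [e1, e2] at b123
  · rw [Q.hT] at b123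
    rcases b123 with e | e
    · exact ha e.symm
    · exact hb e.symm
  · rcases b123 with e | e
    · exact hab e
    · exact hab' e
  · rw [Q.T_comm] at b123
    rcases b123 with e | e
    · exact hab e
    · exact hab' e
  · rw [Q.hT] at b123
    rcases b123 with e | e
    · exact ha e.symm
    · exact hb e.symm

end Cfsg.Agent.Lib.Helper51.TI3
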